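import Cfsg.Agent.H264.ES.Base
import Cfsg.Agent.H200.RowOrthL

/-!
# S4773, task F2b: elements fixed by no coprime automorphism, orthogonal groups (helper264)
-/

set_option autoImplicit false
set_option linter.unusedSectionVars false

namespace Cfsg.Agent.H264.ES

open QuadraticMap Module Cfsg Cfsg.Agent.LieClassical.OrthCore Cfsg.Agent.LieClassical.OrthTrans
open Cfsg.Agent.ClassicalGeometry.OrthSemi Cfsg.Agent.ClassicalGeometry.OrthAut1 Cfsg.Agent.AutOrth.Main
open Cfsg.Agent.H200.LinFix Cfsg.Agent.H568 Cfsg.Agent.LieClassical.QuadForms Cfsg.Agent.H208.Dict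
open Cfsg.Agent.H200.RowOrth
open Cfsg.Agent.H672.Four (ES)

section abs

variable {F V : Type*} [Field F] [AddCommGroup V] [Module F V] {Q : QuadraticForm F V}

/-- **The abstract row.** -/
theorem es_abs [Finite V] [Finite F] (hG : Good Q) {e : ℕ} (he : 3 ≤ e) (h2 : 2 ∣ Nat.card (P Q))
    (hV : finrank F V < 2 * e) (h6 : 6 ≤ e)
    (haut : ∀ a : MulAut (P Q), (orderOf a).Prime → ¬ orderOf a ∣ Nat.card (P Q) → ∃ M : Gam Q, a = Psi Q M)
    (hel : ∀ l : ℕ, l.Prime → l ≠ 2 → Ordd l (Nat.card F) e → l ∣ Nat.card F ^ e - 1 → l ∣ Nat.card (P Q)) :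
    ∃ s : P Q, ES s := by
  classical
  have hfinE : Finite ↥(E Q) := finite_E
  have hfd : FiniteDimensional F V := inferInstance
  obtain ⟨r, hchar⟩ := CharP.exists F
  have hFt : Fintype F := Fintype.ofFinite F
  obtain ⟨⟨f, hf0⟩, hr, hF⟩ := FiniteField.card F r
  have hF' : Nat.card F = r ^ f := by rw [Nat.card_eq_fintype_card]; exact hF
  -- all automorphisms in question are field automorphisms
  have hfield : ∀ a : MulAut (P Q), (orderOf a).Prime → ¬ orderOf a ∣ Nat.card (P Q) →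
      ∃ (M : Gam Q) (σ : F ≃+* F) (c : F), a = Psi Q M ∧ IsSS Q σ c M.1 ∧ σ ≠ 1 := by
    intro a ha hd
    obtain ⟨M, rfl⟩ := haut a ha hd
    have hp2 : orderOf (Psi Q M) ≠ 2 := fun h => hd (by rw [h]; exact h2)
    rcases inner_or_field hG ha hp2 rfl with h | ⟨σ, c, hM, hσ⟩
    · exact absurd h (not_inner ha hd)
    · exact ⟨M, σ, c, rfl, hM, hσ⟩
  by_cases hsmall : r = 2 ∧ f * e = 6
  · refine es_of_forall fun a ha => ?_
    by_contra hd
    obtain ⟨M, σ, c, -, -, hσ⟩ := hfield a ha hd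
    apply hσ
    obtain ⟨rfl, h7⟩ := hsmall
    have hf1 : f = 1 := by
      have : f * 6 ≤ f * e := Nat.mul_le_mul_left _ h6
      omega
    subst hf1
    have hc2 : Nat.card F = 2 := hF'
    ext x
    have h8 : ∀ y : F, y = 0 ∨ y = 1 := by
      intro y
      by_contra hcon
      push Not at hcon
      have h9 : 3 ≤ Nat.card F := by
        rw [Nat.card_eq_fintype_card]
        calc 3 = ({0, 1, y} : Finset F).card := by
              rw [Finset.card_eq_three.2 ⟨0, 1, y, zero_ne_one, hcon.1.symm, hcon.2.symm, rfl⟩]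
          _ ≤ Fintype.card F := Finset.card_le_univ _
      omega
    rcases h8 x with rfl | rfl
    · rw [map_zero]; rfl
    · rw [map_one]; rfl
  obtain ⟨l, hl, hl2, hsup, hdiv, hlle, hd₁, hlr⟩ := exists_super (e := e) hr hf0 he hsmall
  rw [← hF'] at hdiv hd₁
  have := Fact.mk hl
  have hlF : (l : F) ≠ 0 := natCast_ne_of_not_dvd hr hlr
  obtain ⟨y, hy, hy1⟩ := exists_elt hG hl2 (hel l hl hl2 hd₁ hdiv)
  refine ⟨QuotientGroup.mk y, fun a ha hd => ?_⟩
  obtain ⟨M, σ, c, rfl, hM, hσ⟩ := hfield a ha hd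
  refine not_fixed_field hG hl2 hM hσ (fun z hz => ?_) (orderOf_mk hG (hl.odd_of_ne_two hl2) hy hy1)
  by_cases hz1 : z = 1
  · subst hz1
    intro U hU _
    left
    rw [eq_bot_iff]
    intro u hu
    have h2 := hU u hu
    rw [map_one, R_eq_bot.2 rfl] at h2
    exact h2
  · have hz' : en Q z ^ l = 1 := by rw [← map_pow, hz, map_one]
    exact irrZ_of hr hF' hsup hlF hz' (finrank_R_eq hd₁ hlF hV hz hz1).le

end abs

section num

theorem eight_dvd_sq {q : ℕ} (hq : Odd q) : 8 ∣ q ^ 2 - 1 := Nat.eight_dvd_sq_sub_one_of_odd hq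

theorem two_dvd_of_eight {g n : ℕ} (hg : g ∣ 4) (h : 8 ∣ g * n) : 2 ∣ n := by
  by_contra h2
  have h3 : Nat.Coprime 8 n := by
    have : Nat.Coprime 2 n := (Nat.Prime.coprime_iff_not_dvd Nat.prime_two).2 h2
    exact Nat.Coprime.pow_left 3 this
  have h4 : 8 ∣ g := h3.dvd_of_dvd_mul_right h
  have h5 := Nat.le_of_dvd (by norm_num) (h4.trans hg)
  omega

theorem eight_dvd_prod {q m : ℕ} (hm : 4 ≤ m) (X : ℕ) :
    8 ∣ q ^ (m * (m - 1)) * X * ∏ i ∈ Finset.range (m - 1), (q ^ (2 * (i + 1)) - 1) := by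
  rcases Nat.even_or_odd q with hq | hq
  · refine Dvd.dvd.mul_right (Dvd.dvd.mul_right ?_ _) _
    have h1 : 2 ^ (m * (m - 1)) ∣ q ^ (m * (m - 1)) := pow_dvd_pow_of_dvd (even_iff_two_dvd.1 hq) _
    have h2 : 3 ≤ m * (m - 1) := by
      have : 3 ≤ m - 1 := by omega
      nlinarith
    exact (pow_dvd_pow 2 h2).trans h1
  · refine Dvd.dvd.mul_left ?_ _
    refine dvd_trans (eight_dvd_sq hq) ?_
    exact Finset.dvd_prod_of_mem (fun i => q ^ (2 * (i + 1)) - 1) (Finset.mem_range.2 (show 0 < m - 1 by omega))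

theorem three_dvd_prod {q m : ℕ} (hm : 4 ≤ m) (X : ℕ) :
    3 ∣ q ^ (m * (m - 1)) * X * ∏ i ∈ Finset.range (m - 1), (q ^ (2 * (i + 1)) - 1) := by
  by_cases h3 : 3 ∣ q
  · refine Dvd.dvd.mul_right (Dvd.dvd.mul_right ?_ _) _
    refine h3.trans (dvd_pow_self q ?_)
    have : 3 ≤ m - 1 := by omega
    nlinarith
  · refine Dvd.dvd.mul_left ?_ _
    have h4 : 3 ∣ q ^ 2 - 1 := by
      have h5 : q % 3 = 1 ∨ q % 3 = 2 := by omega
      have h6 : q ^ 2 % 3 = 1 := by
        rcases h5 with h | h <;> simp [Nat.pow_mod, h]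
      exact (Nat.modEq_iff_dvd' (Nat.one_le_iff_ne_zero.2 (by rintro h; rw [h] at h6; omega))).1
        (show 1 ≡ q ^ 2 [MOD 3] from h6.symm)
    refine dvd_trans h4 ?_
    exact Finset.dvd_prod_of_mem (fun i => q ^ (2 * (i + 1)) - 1) (Finset.mem_range.2 (show 0 < m - 1 by omega))

end num

section rows

universe u

variable {K : Type u} [Group K] [Finite K] [IsSimpleGroup K]

/-- **`POmega_{2n+1}(q)`.** -/
theorem es_oodd (h : IsPOmegaOdd K) : ∃ s : K, ES s := by
  obtain ⟨F, _, _, m, hm, hodd, ⟨e⟩⟩ := h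
  have h2 : (2 : F) ≠ 0 := by
    intro h0
    have h3 : CharP F 2 := (CharP.charP_iff_prime_eq_zero Nat.prime_two).2 (by exact_mod_cast h0)
    have h4 := FiniteField.even_card_of_char_two ((CharP.eq F (ringChar.charP F) h3))
    rw [Nat.odd_iff] at hodd
    omega
  have hcard := S0292.result (F := F) rfl hodd m hm
  have hall := all_odd (F := F) hm h2
  refine exists_congr e.symm ?_
  revert hcard hall
  rw [← coe_oddForm]
  intro hcard hall
  have hG : Good (oddForm m F) := good_odd (by omega) h2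
  refine exists_congr (pe hG).symm ?_
  have hV : finrank F (Unit ⊕ (Fin m ⊕ Fin m) → F) = 2 * m + 1 := by
    rw [Module.finrank_fintype_fun_eq_card]
    simp
    omega
  refine es_abs hG (e := 2 * m) (by omega) ?_ (by rw [hV]; omega) (by omega) (fun a _ _ => exists_gam' hG hall a) ?_
  · rw [card_P hG]
    refine two_dvd_of_eight (g := 2) (by norm_num) ?_
    rw [hcard]
    refine Dvd.dvd.mul_left ?_ _
    refine dvd_trans (eight_dvd_sq hodd) ?_
    exact Finset.dvd_prod_of_mem (fun i => Fintype.card F ^ (2 * (i + 1)) - 1)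
      (Finset.mem_range.2 (show 0 < m by omega))
  · intro l hl hl2 _ hd
    rw [card_P hG]
    rw [Nat.card_eq_fintype_card (α := F)] at hd
    have h3 : l ∣ 2 * Nat.card (POmega F ⇑(oddForm m F)) := by
      rw [hcard]
      refine Dvd.dvd.mul_left ?_ _
      refine Dvd.dvd.trans ?_ (Finset.dvd_prod_of_mem (fun i => Fintype.card F ^ (2 * (i + 1)) - 1)
        (Finset.mem_range.2 (show m - 1 < m by omega)))
      change l ∣ Fintype.card F ^ (2 * (m - 1 + 1)) - 1
      rwa [Nat.sub_add_cancel (by omega)]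
    rcases hl.dvd_mul.1 h3 with h4 | h4
    · exact absurd ((Nat.prime_dvd_prime_iff_eq hl Nat.prime_two).1 h4) hl2
    · exact h4

/-- **`POmega^-_{2n}(q)`.** -/
theorem es_ominus (h : IsPOmegaMinus K) : ∃ s : K, ES s := by
  obtain ⟨F, _, _, m, a, b, hm, hab, ⟨e⟩⟩ := h
  have hcard := S0294.result (F := F) rfl m hm a b hab
  have hall := all_minus (F := F) (m := m - 1) (by omega) hab
  refine exists_congr e.symm ?_
  revert hcard hall
  rw [← coe_minusForm]
  intro hcard hall
  have hG : Good (minusForm (m - 1) F a b) := good_minus (by omega) hab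
  refine exists_congr (pe hG).symm ?_
  have hV : finrank F ((Fin (m - 1) ⊕ Fin (m - 1)) ⊕ Fin 2 → F) = 2 * m := by
    rw [Module.finrank_fintype_fun_eq_card]
    simp
    omega
  refine es_abs hG (e := 2 * m) (by omega) ?_ (by rw [hV]; omega) (by omega) (fun a _ _ => exists_gam' hG hall a) ?_
  · rw [card_P hG]
    refine two_dvd_of_eight (g := Nat.gcd 4 (Fintype.card F ^ m + 1)) (Nat.gcd_dvd_left _ _) ?_
    rw [hcard]
    exact eight_dvd_prod hm _
  · intro l hl hl2 hd₁ hd
    rw [card_P hG]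
    have := Fact.mk hl
    have hd' := dvd_add_one (n := m) (by omega) hd₁ hd
    rw [Nat.card_eq_fintype_card (α := F)] at hd'
    have h3 : l ∣ Nat.gcd 4 (Fintype.card F ^ m + 1) * Nat.card (POmega F ⇑(minusForm (m - 1) F a b)) := by
      rw [hcard, mul_assoc]
      exact Dvd.dvd.mul_left (Dvd.dvd.mul_right hd' _) _
    rcases hl.dvd_mul.1 h3 with h4 | h4
    · exfalso
      have h5 : l ∣ 2 ^ 2 := h4.trans (Nat.gcd_dvd_left _ _)
      exact hl2 ((Nat.prime_dvd_prime_iff_eq hl Nat.prime_two).1 (hl.dvd_of_dvd_pow h5))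
    · exact h4

/-- **`POmega^+_{2n}(q)`.** -/
theorem es_oplus (h : IsPOmegaPlus K) : ∃ s : K, ES s := by
  obtain ⟨F, _, _, m, hm, ⟨e⟩⟩ := h
  have hcard := S0293.result (F := F) rfl m hm
  refine exists_congr e.symm ?_
  revert hcard
  rw [← coe_plusForm]
  intro hcard
  have hG : Good (plusForm m F) := good_plus (by omega)
  have hV : finrank F (Fin m ⊕ Fin m → F) = 2 * m := by
    rw [Module.finrank_fintype_fun_eq_card]
    simp
    omega
  refine exists_congr (pe hG).symm ?_
  have hfinE : Finite ↥(E (plusForm m F)) := finite_E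
  have hfinP : Finite (P (plusForm m F)) := inferInstance
  have h2 : 2 ∣ Nat.card (P (plusForm m F)) := by
    rw [card_P hG]
    refine two_dvd_of_eight (g := Nat.gcd 4 (Fintype.card F ^ m - 1)) (Nat.gcd_dvd_left _ _) ?_
    rw [hcard]
    exact eight_dvd_prod hm _
  have h3 : 3 ∣ Nat.card (P (plusForm m F)) := by
    rw [card_P hG]
    have h4 : 3 ∣ Nat.gcd 4 (Fintype.card F ^ m - 1) * Nat.card (POmega F ⇑(plusForm m F)) := by
      rw [hcard]
      exact three_dvd_prod hm _
    rcases Nat.prime_three.dvd_mul.1 h4 with h5 | h5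
    · exact absurd (h5.trans (Nat.gcd_dvd_left _ _)) (by norm_num)
    · exact h5
  refine es_abs hG (e := 2 * (m - 1)) (by omega) h2 (by rw [hV]; omega) (by omega) ?_ ?_
  · intro a ha hd
    rcases Nat.lt_or_ge 4 m with hm5 | hm4
    · have hall := all_plus (F := F) (m := m) (by omega)
      rw [← coe_plusForm] at hall
      exact exists_gam' hG hall a
    obtain rfl : m = 4 := le_antisymm hm4 hm
    obtain ⟨Γ, hΓ, hind⟩ := Cfsg.Agent.ClassicalGeometry.TrialityFinal.exists_index_three hG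
      fun α x hx hx0 => by
        rcases Cfsg.Agent.ClassicalGeometry.OrthAut3.dichotomy hG (by simp) α hx hx0 with h | h
        · exact Or.inl h
        · exact Or.inr h.2
    have haΓ : a ∈ Γ := by
      have h4 := ha.two_le
      have h5 : orderOf a ≠ 2 := fun h => hd (by rw [h]; exact h2)
      have h6 : orderOf a ≠ 3 := fun h => hd (by rw [h]; exact h3)
      have h7 : orderOf a ≠ 4 := by
        intro h
        rw [h] at ha
        exact absurd ha (by norm_num)
      exact H628.ZOutOrth.mem_of_index_three hind ha (by omega) rfl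
    refine exists_gam_one hG ?_
    rw [ind_iff_pt hG (by simp)]
    have h1 : tr hG ((trE hG).symm a) = a := by rw [← trE_apply, MulEquiv.apply_symm_apply]
    rw [h1]
    exact (hΓ a).1 haΓ
  · intro l hl hl2 _ hd
    refine el_plus_i hm (i := m - 2) (by omega) hl hl2 ?_
    rwa [show m - 2 + 1 = m - 1 by omega]

end rows

end Cfsg.Agent.H264.ES
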