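import Cfsg.Agent.H264.ES.Base
import Cfsg.Agent.H458.RowPSp
import Cfsg.Agent.S0245
import Cfsg.Agent.S0246

/-!
# S4773, task F2b: elements fixed by no coprime automorphism, symplectic groups (helper264)
-/

set_option autoImplicit false
set_option linter.unusedSectionVars false

namespace Cfsg.Agent.H264.ES

open Cfsg Module Matrix Subgroup Cfsg.Agent.H568 Cfsg.Agent.H689 Cfsg.Agent.H458.Zs Cfsg.Agent.H458.SpOp
open Cfsg.Agent.H458.SpAut Cfsg.Agent.H458.RowPSp
open Cfsg.Agent.ClassicalGeometry.SympBasic Cfsg.Agent.ClassicalGeometry.SympAutSemi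
open Cfsg.Agent.ClassicalGeometry.SympGamma
open Cfsg.Agent.H672.Four (ES)

variable {m : ℕ} {F : Type} [Field F] [Fintype F]

theorem two_dvd_psp (hm : 2 ≤ m) (h22 : m = 2 → 3 ≤ Fintype.card F) : 2 ∣ Nat.card (PSp m F) := by
  have h1 := S0245.result (F := F) rfl m
  have h2 := S0246.result (F := F) rfl m (by omega)
  have h3 := Subgroup.card_eq_card_quotient_mul_card_subgroup
    (Subgroup.center (Matrix.symplecticGroup (Fin m) F))
  rw [h1, h2] at h3
  have h8 : 8 ∣ Fintype.card F ^ (m ^ 2) * ∏ i ∈ Finset.range m, (Fintype.card F ^ (2 * (i + 1)) - 1) := by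
    rcases Nat.even_or_odd (Fintype.card F) with hq | hq
    · refine Dvd.dvd.mul_right ?_ _
      have h1 : 2 ^ (m ^ 2) ∣ Fintype.card F ^ (m ^ 2) := pow_dvd_pow_of_dvd (even_iff_two_dvd.1 hq) _
      have h2 : 3 ≤ m ^ 2 := by nlinarith
      exact (pow_dvd_pow 2 h2).trans h1
    · refine Dvd.dvd.mul_left ?_ _
      refine dvd_trans (Nat.eight_dvd_sq_sub_one_of_odd hq) ?_
      exact Finset.dvd_prod_of_mem (fun i => Fintype.card F ^ (2 * (i + 1)) - 1) (Finset.mem_range.2 (show 0 < m by omega))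
  rw [h3] at h8
  by_contra h
  have h4 : Nat.Coprime 8 (Nat.card (PSp m F)) := by
    have : Nat.Coprime 2 (Nat.card (PSp m F)) := (Nat.Prime.coprime_iff_not_dvd Nat.prime_two).2 h
    exact Nat.Coprime.pow_left 3 this
  have h5 : 8 ∣ Nat.gcd 2 (Fintype.card F - 1) := h4.dvd_of_dvd_mul_left h8
  have h6 := Nat.le_of_dvd (by norm_num) (h5.trans (Nat.gcd_dvd_left _ _))
  omega

theorem es_psp_std (hm : 2 ≤ m) (h22 : m = 2 → 3 ≤ Fintype.card F) : ∃ s : PSp m F, ES s := by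
  have h2 := two_dvd_psp hm h22
  obtain ⟨r, hr⟩ := CharP.exists F
  obtain ⟨f, hrp, hF⟩ := FiniteField.card F r
  have : Fact r.Prime := ⟨hrp⟩
  have hfield : ∀ a : MulAut (PSp m F), (orderOf a).Prime → ¬ orderOf a ∣ Nat.card (PSp m F) →
      3 ≤ (f : ℕ) ∧ ∃ (g : semiSim m F) (φ : F ≃+* F) (c : F), IsSemi g.1 φ c ∧ φ ≠ RingEquiv.refl F ∧
        Psi m F g = a := by
    intro a ha hd
    have hp2 : orderOf a ≠ 2 := fun h => hd (by rw [h]; exact h2)
    rcases inner_or_field hm h22 (ha.odd_of_ne_two hp2) (pow_orderOf_eq_one a) with ⟨s, hs⟩ | ⟨g, φ, c, hc, hs, hφ, hg⟩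
    · exact absurd ⟨s, hs⟩ (not_inner ha hd)
    · have hle := le_of_field hc hs hφ hF (by omega : 1 ≤ m) ha (by rw [hg, pow_orderOf_eq_one])
      have := ha.two_le
      exact ⟨by omega, g, φ, c, hs, hφ, hg⟩
  by_cases hf3 : 3 ≤ (f : ℕ)
  swap
  · refine es_of_forall fun a ha => ?_
    by_contra hd
    exact hf3 (hfield a ha hd).1
  have h12 : 2 * m * 3 ≤ 2 * m * f := Nat.mul_le_mul_left _ hf3
  obtain ⟨l, hl⟩ := exists_ppd (q := r) (k := 2 * m * f) hrp.two_le (by omega) (by omega)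
  have hl1 := hl.le (by omega)
  have hl2 : l ≠ 2 := by omega
  have hppd : Ppd (Fintype.card F) (2 * m) l := by
    rw [hF]
    exact ppd_field f.pos (by rw [mul_comm]; exact hl)
  obtain ⟨y, hy⟩ := exists_elt (F := F) hl.prime (by omega : 1 ≤ m) le_rfl ((hppd.iff _).2 dvd_rfl)
  refine ⟨pr m F y, fun a ha hd => ?_⟩
  obtain ⟨-, g, φ, c, hs, hφ, rfl⟩ := hfield a ha hd
  exact field_not_fixed hs hφ hF (by omega) hl hl2 _ (orderOf_pr (by omega) hl.prime hl2 hy)

/-- **Symplectic groups.** -/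
theorem es_psp {K : Type*} [Group K] (h : Cfsg.IsPSp K) : ∃ s : K, ES s := by
  obtain ⟨F, _, _, m, hm, h22, ⟨e⟩⟩ := h
  exact exists_congr e.symm (es_psp_std hm h22)

end Cfsg.Agent.H264.ES
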